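import Cfsg.Agent.MaxSub.TensorPowSp.OrthBridge
import Cfsg.Agent.NotMax.TensorPower

/-!
The stabiliser of a symplectic tensor power is maximal in `Ω⁺`.
-/

set_option autoImplicit false
set_option linter.unusedSectionVars false
set_option linter.unusedSimpArgs false
set_option linter.style.haveILetI false

namespace Cfsg.Agent.MaxSub.TensorPowSp.Omega

open Module Matrix QuadraticMap Cfsg.Agent.MaxSub.TensorPow Cfsg.Agent.Classical Cfsg.Geo
open Cfsg.Agent.NotMax (powAlg powVec powAlg_mulVec powVec_apply powVec_injective powVec_surjective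
  mem_wreath_powAlg)
open Cfsg.Agent.GeoClasses (toQF oqToGL oqToGL_mulVec map_oqToGL_commutator pureMat factorPerm
  glFactorPerm glPure)
open scoped MatrixGroups

universe u

variable {F : Type u} [Field F] [Fintype F]

lemma factorPerm_pvec {k t : ℕ} (π : Equiv.Perm (Fin t)) (us : Fin t → Fin k → F) :
    (factorPerm k π : Matrix (Fin t → Fin k) (Fin t → Fin k) F) *ᵥ pvec us =
      pvec fun i => us (π.symm i) := by
  funext x
  simp only [factorPerm, Matrix.mulVec, dotProduct, ite_mul, one_mul, zero_mul, Finset.sum_ite_eq',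
    Finset.mem_univ, if_true, pvec, Function.comp_apply]
  exact (Equiv.prod_comp π (fun i => us (π.symm i) (x i))).symm.trans (by simp) |>.symm

/-- The stabiliser of a symplectic tensor power in `Ω⁺` is maximal. -/
theorem orth_tensorPower_maximal {n : ℕ} (hn : 13 ≤ n) {Q : (Fin n → F) → F}
    (hQ : IsNondegenerateQuadraticForm Q) (k t : ℕ) (ht : 2 ≤ t)
    (hqt : Odd (Fintype.card F) → Even t) (hex2 : ¬ (Fintype.card F = 3 ∧ k = 2))
    (hex3 : ¬ Odd (Fintype.card F) → 6 ≤ k) (e : (Fin n) ≃ (Fin t → Fin k)) (P : GL (Fin n) F)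
    (f₁ : (Fin k → F) → (Fin k → F) → F) (hf₁ : IsSymplecticForm f₁)
    (hT : IsTensorPowerFormStructure id (QuadraticMap.polar Q) f₁ e P)
    (hpure : ∀ xs : Fin t → (Fin k → F),
      Q ((P : Matrix (Fin n) (Fin n) F) *ᵥ ((fun a : Fin t → Fin k => ∏ i, xs i (a i)) ∘ e)) = 0) :
    IsMaximalIn (omegaGL Q) (tensorWreathSubgroup k t e P ⊓ omegaGL Q) := by
  classical
  obtain ⟨c, hc, hT⟩ := hT
  set Qf := toQF hQ with hQf
  let S : Ten F k t ≃ₗ[F] (Fin n → F) :=
    LinearEquiv.ofBijective (powVec e P) ⟨powVec_injective e P, powVec_surjective e P⟩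
  have hS : ∀ X, S X = powVec e P X := fun X => rfl
  let g : (Fin k → F) →ₗ[F] (Fin k → F) →ₗ[F] F := LinearMap.mk₂ F f₁ hf₁.bilinear.add_left
    hf₁.bilinear.smul_left hf₁.bilinear.add_right hf₁.bilinear.smul_right
  let D : OData F k t :=
    { g := g
      Q := Qf.comp S.toLinearMap
      c := c
      alt :=
        { alt := fun u => by simp [g, hf₁.alternating]
          nd := fun u hu => by
            by_contra h0
            obtain ⟨-, y, hy⟩ := hf₁.nondegenerate u h0
            exact hy (by simpa [g] using hu y) }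
      c_ne := hc
      polar_pvec := fun us vs => by
        have h1 : polar (Qf.comp S.toLinearMap) (pvec us) (pvec vs) =
            polar Q (powVec e P (pvec us)) (powVec e P (pvec vs)) := by
          simp only [polar, QuadraticMap.comp_apply, LinearEquiv.coe_coe, map_add]
          rfl
        rw [h1, powVec_apply, powVec_apply, hT, ← prodForm_pvec g us vs]
        congr 1
        rw [prodForm, Matrix.toLinearMap₂'_apply']
        simp only [dotProduct, Matrix.mulVec, Finset.mul_sum, id_eq]
        refine Finset.sum_congr rfl fun a _ => Finset.sum_congr rfl fun b _ => ?_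
        rw [mul_assoc]
        rfl
      pure := fun us => hpure us }
  have hcard : n = k ^ t := by simpa using Fintype.card_congr e
  obtain ⟨l, bs, -⟩ := Forms.exists_symplectic_basis (B := g) (fun x => D.alt.alt x)
    ⟨fun x h => D.alt.nd x h, fun y h => D.alt.nd y fun x => by
      show D.g y x = 0
      rw [D.alt.skew, show D.g x y = 0 from h x, neg_zero]⟩
  have hkl : k = l + l := by
    have := Module.finrank_eq_card_basis bs
    simpa [finrank_fin_fun] using this
  have hk2 : 2 ≤ k := by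
    by_contra h
    have : k = 0 := by omega
    rw [this, zero_pow (by omega)] at hcard
    omega
  have hkt : 4 ≤ k ∨ (k = 2 ∧ 4 ≤ t) := by
    by_cases h : k = 2
    · refine Or.inr ⟨h, ?_⟩
      by_contra ht4
      have : t = 2 ∨ t = 3 := by omega
      rcases this with rfl | rfl <;> rw [h] at hcard <;> omega
    · exact Or.inl (by omega)
  have hn5 : 5 ≤ k ^ t := by omega
  let Φ : OQ D.Q ≃* OQ Qf := OQCongr S fun X => rfl
  let j : OQ D.Q →* GL (Fin n) F := (oqToGL Qf).comp Φ.toMonoidHom
  have hj : ∀ m X, (j m : Matrix (Fin n) (Fin n) F) *ᵥ powVec e P X = powVec e P (m.1 X) := fun m X => by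
    show (oqToGL Qf (Φ m) : Matrix (Fin n) (Fin n) F) *ᵥ S X = S (m.1 X)
    rw [oqToGL_mulVec]
    show S (m.1 (S.symm (S X))) = _
    rw [LinearEquiv.symm_apply_apply]
  have hΩ : (commutator (OQ D.Q)).map j = omegaGL Q := by
    rw [← Subgroup.map_map, map_commutator_top_of_equiv Φ, map_oqToGL_commutator, hQf,
      GeoClasses.coe_toQF]
  have hwit : ∀ m, (∃ σ A, Wit σ A m.1) → j m ∈ tensorWreathSubgroup k t e P := by
    rintro m ⟨σ, A, hA⟩
    have hu : ∀ i, IsUnit (A i) := fun i =>
      Matrix.mulVec_injective_iff_isUnit.1 (wit_injective hk2 hA i)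
    set w := glPure (fun i => (hu i).unit) * glFactorPerm k σ.symm with hw
    have hwm : w ∈ tensorWreathStandard k t F :=
      mul_mem (Subgroup.subset_closure (Or.inl ⟨_, fun x y => rfl⟩))
        (Subgroup.subset_closure (Or.inr ⟨σ.symm, fun x y => rfl⟩))
    have he : j m = Units.map (powAlg e P : _ →* _) w := by
      refine GeoClasses.gl_ext_mulVec fun v => ?_
      obtain ⟨X, rfl⟩ := powVec_surjective e P v
      rw [hj]
      show _ = powAlg e P (w : Matrix (Fin t → Fin k) (Fin t → Fin k) F) *ᵥ _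
      rw [powAlg_mulVec]
      congr 1
      refine LinearMap.congr_fun (f := m.1.toLinearMap) (g := Matrix.toLin' w.val)
        (ext_pvec fun us => ?_) X
      show m.1 (pvec us) = (pureMat _ * factorPerm k σ.symm) *ᵥ pvec us
      rw [hA, ← Matrix.mulVec_mulVec, factorPerm_pvec, pureMat_pvec]
      simp
    rw [he]
    exact ⟨_, ⟨w, hwm, rfl⟩, Units.ext rfl⟩
  have hwit' : ∀ m, j m ∈ tensorWreathSubgroup k t e P → ∃ σ A, Wit σ A m.1 := by
    intro m hm
    obtain ⟨gs, π, h⟩ := mem_wreath_powAlg hm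
    refine ⟨π.symm, gs, fun us => powVec_injective e P ?_⟩
    rw [← hj, h, powAlg_mulVec, ← Matrix.mulVec_mulVec, factorPerm_pvec, pureMat_pvec]
  have hkt' : 4 ≤ k ∨ (1 ≤ k ∧ 3 ≤ t) := by omega
  refine ⟨lt_of_le_not_ge inf_le_right fun hle => ?_, fun M hM hMΩ => ?_⟩
  · obtain ⟨m, hm, hno⟩ := exists_outside (D := D) hn5 ht hkt'
    obtain ⟨σ, A, hA⟩ := hwit' m (hle (show j m ∈ omegaGL Q from hΩ ▸ ⟨m, hm, rfl⟩)).1
    exact hno σ A hA
  have hholds : Holds (M.comap j) :=
    ⟨fun m hm hw => hM ⟨hwit m hw, by rw [← hΩ]; exact ⟨m, hm, rfl⟩⟩⟩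
  have halt : (∀ m ∈ M.comap j, ∃ σ A, Wit σ A m.1) ∨ commutator (OQ D.Q) ≤ M.comap j := by
    by_cases hodd : Odd (Fintype.card F)
    · have h2 : (2 : F) ≠ 0 := fun e2 => by
        have : CharP F 2 := (CharP.charP_iff_prime_eq_zero Nat.prime_two).2 e2
        exact Nat.not_even_iff_odd.2 hodd
          (Nat.even_iff.2 (FiniteField.even_card_iff_char_two.1 (ringChar.eq F 2)))
      refine alternative_odd h2 hk2 (fun h3 => ?_) ht (hqt hodd) hn5 hkt hholds
      rw [Nat.card_eq_fintype_card] at h3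
      have : k ≠ 2 := fun h => hex2 ⟨h3, h⟩
      omega
    · have h2 : (2 : F) = 0 := by
        have hc : ringChar F = 2 := FiniteField.even_card_iff_char_two.2
          (Nat.even_iff.1 (Nat.not_odd_iff_even.1 hodd))
        exact (ringChar.spec F 2).2 (by rw [hc]) |> fun h => by simpa using h
      exact alternative_two h2 (hex3 hodd) ht hn5 hholds
  rcases halt with hall | hall
  · refine Or.inl (le_antisymm (fun x hx => ⟨?_, hMΩ hx⟩) hM)
    obtain ⟨m, -, rfl⟩ : x ∈ (commutator (OQ D.Q)).map j := hΩ ▸ hMΩ hx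
    exact hwit m (hall m hx)
  · refine Or.inr (le_antisymm hMΩ ?_)
    rw [← hΩ, Subgroup.map_le_iff_le_comap]
    exact hall

end Cfsg.Agent.MaxSub.TensorPowSp.Omega
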