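import Cfsg.Agent.MaxSub.TensorPowSp.OmegaMem
import Cfsg.Agent.MaxSub.TensorPowSp.Vectors
import Cfsg.Agent.MaxSub.TensorPowSp.PairShape
import Cfsg.Agent.MaxSub.TensorPowSp.Even.Grow

/-!
Tensor powers of a symplectic space inside an orthogonal group: the two alternatives.
-/

set_option autoImplicit false
set_option linter.unusedSectionVars false
set_option linter.unusedSimpArgs false
set_option linter.style.haveILetI false

namespace Cfsg.Agent.MaxSub.TensorPowSp.Omega

open Module Matrix QuadraticMap Cfsg.Agent.MaxSub.TensorPow Cfsg.Agent.Classical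
open Cfsg.Agent.MaxSub.ExtField (Mem)
open Cfsg.Agent.NotMax (site)
open Cfsg.Agent.GeoClasses (pureMat pureMat_mul pureMat_one factorPerm glFactorPerm glPure)

universe u

variable {F : Type u} [Field F] {k t : ℕ} {D : OData F k t}

/-- The action of a Siegel transformation of two pure tensors differing at one factor. -/
lemma siegel_pvec {z : Fin t → Fin k → F} {o : Fin t} {b : Fin k → F} {a : F}
    (h : polar D.Q (pvec z) (a • pvec (Function.update z o b)) = 0) (us : Fin t → Fin k → F) :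
    (siegel D.Q (D.pure z) h).1 (pvec us) = pvec us + (a * D.c * ∏ i ∈ Finset.univ.erase o, D.g (z i) (us i)) •
      pvec (Function.update z o (D.g (z o) (us o) • b - D.g b (us o) • z o)) := by
  rw [siegel_apply, polar_smul_left, QuadraticMap.map_smul, D.pure, D.polar_pvec, D.polar_pvec,
    sub_eq_add_neg (D.g (z o) (us o) • b), ← neg_smul, pvec_update_add, pvec_update_smul, pvec_update_smul,
    Function.update_eq_self,
    ← Finset.mul_prod_erase Finset.univ (fun i => D.g (z i) (us i)) (Finset.mem_univ o),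
    ← Finset.mul_prod_erase Finset.univ (fun i => D.g (Function.update z o b i) (us i)) (Finset.mem_univ o),
    Finset.prod_congr rfl fun i hi => show D.g (Function.update z o b i) (us i) = D.g (z i) (us i) by
      rw [Function.update_of_ne (Finset.ne_of_mem_erase hi)]]
  simp only [smul_eq_mul, mul_zero, zero_smul, zero_mul, sub_zero, Function.update_self]
  module

lemma polar_update (ht : 2 ≤ t) (z : Fin t → Fin k → F) (o : Fin t) (b : Fin k → F) :
    polar D.Q (pvec z) (pvec (Function.update z o b)) = 0 := by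
  haveI : Nontrivial (Fin t) := Fin.nontrivial_iff_two_le.2 ht
  obtain ⟨i, hi⟩ := _root_.exists_ne o
  exact D.polar_zero i (by rw [Function.update_of_ne hi]; exact D.alt.alt _)

/-- Elements with the displacement of such transformations give parameters. -/
lemma mem_par_of_forall (ht : 2 ≤ t) {M : Subgroup (OQ D.Q)} {z : Fin t → Fin k → F} {o : Fin t}
    {b : Fin k → F}
    (h : ∀ a : F, ∃ m ∈ M, ∀ us, m.1 (pvec us) = pvec us + (a * ∏ i ∈ Finset.univ.erase o, D.g (z i) (us i)) •
      pvec (Function.update z o (D.g (z o) (us o) • b - D.g b (us o) • z o))) :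
    pvec (Function.update z o b) ∈ par D M z := by
  intro a
  have h0 : polar D.Q (pvec z) (a • pvec (Function.update z o b)) = 0 := by
    rw [polar_smul_right, polar_update ht, smul_zero]
  obtain ⟨m, hm, hx⟩ := h (a * D.c)
  refine ⟨h0, ?_⟩
  suffices e : siegel D.Q (D.pure z) h0 = m by rw [e]; exact hm
  refine Subtype.ext (LinearEquiv.toLinearMap_injective (ext_pvec fun us => ?_))
  simp only [LinearEquiv.coe_coe]
  rw [siegel_pvec h0, hx]

/-- A sum of two pure tensors differing at two factors is not pure. -/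
lemma not_pure_add {a b : Fin t → Fin k → F} (ha : ∀ i, a i ≠ 0) (hb : ∀ i, b i ≠ 0) {s : F}
    (hs : s ≠ 0) {i j : Fin t} (hij : i ≠ j) (hi : a i ∉ F ∙ b i) (hi' : b i ∉ F ∙ a i)
    (hj : a j ∉ F ∙ b j) (hj' : b j ∉ F ∙ a j) (T : Fin t → Fin k → F) :
    pvec a + s • pvec b ≠ pvec T := by
  classical
  intro e
  obtain ⟨pa, pa1, pa0⟩ := exists_perp hi
  obtain ⟨pb, pb1, pb0⟩ := exists_perp hi'
  obtain ⟨qa, qa1, qa0⟩ := exists_perp hj
  obtain ⟨qb, qb1, qb0⟩ := exists_perp hj'
  have pa0' := pa0 _ (Submodule.mem_span_singleton_self _)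
  have pb0' := pb0 _ (Submodule.mem_span_singleton_self _)
  have qa0' := qa0 _ (Submodule.mem_span_singleton_self _)
  have qb0' := qb0 _ (Submodule.mem_span_singleton_self _)
  choose χ hχa hχb using fun l => exists_dot_ne_zero (p := a l) (q := b l) (ha l) (hb l)
  set R := (Finset.univ.erase i).erase j
  have split : ∀ (p q : Fin k → F) (v : Fin t → Fin k → F),
      fprod (Function.update (Function.update χ i p) j q) (pvec v) =
        (p ⬝ᵥ v i) * ((q ⬝ᵥ v j) * ∏ l ∈ R, χ l ⬝ᵥ v l) := by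
    intro p q v
    rw [fprod_pvec, ← Finset.mul_prod_erase Finset.univ _ (Finset.mem_univ i),
      ← Finset.mul_prod_erase (Finset.univ.erase i) _ (Finset.mem_erase.2 ⟨hij.symm, Finset.mem_univ j⟩)]
    rw [Function.update_of_ne hij, Function.update_self, Function.update_self]
    congr 2
    refine Finset.prod_congr rfl fun l hl => ?_
    simp only [R, Finset.mem_erase] at hl
    rw [Function.update_of_ne hl.1, Function.update_of_ne hl.2.1]
  have hv : ∀ p q : Fin k → F, (p ⬝ᵥ T i) * ((q ⬝ᵥ T j) * ∏ l ∈ R, χ l ⬝ᵥ T l) =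
      (p ⬝ᵥ a i) * ((q ⬝ᵥ a j) * ∏ l ∈ R, χ l ⬝ᵥ a l) +
        s * ((p ⬝ᵥ b i) * ((q ⬝ᵥ b j) * ∏ l ∈ R, χ l ⬝ᵥ b l)) := fun p q => by
    rw [← split, ← split, ← split, ← e, map_add, map_smul, smul_eq_mul]
  have c00 := hv pa qa
  have c11 := hv pb qb
  have c01 := hv pa qb
  simp only [pa1, qa1, pb1, qb1, pa0', pb0', qa0', qb0', one_mul, zero_mul, mul_zero, add_zero,
    zero_add] at c00 c11 c01
  have hne : ∀ v : Fin t → Fin k → F, (∀ l, χ l ⬝ᵥ v l ≠ 0) → ∏ l ∈ R, χ l ⬝ᵥ v l ≠ 0 := fun v h =>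
    Finset.prod_ne_zero_iff.2 fun l _ => h l
  have hPa := hne a fun l => by rw [dotProduct_comm]; exact hχa l
  have hPb := hne b fun l => by rw [dotProduct_comm]; exact hχb l
  rcases mul_eq_zero.1 c01 with h0 | h0
  · rw [h0, zero_mul] at c00; exact hPa c00.symm
  rcases mul_eq_zero.1 h0 with h0 | h0
  · rw [h0, zero_mul, mul_zero] at c11; exact mul_ne_zero hs hPb c11.symm
  · rw [h0, mul_zero, mul_zero] at c00; exact hPa c00.symm

/-- An element of `Ω` outside the stabiliser. -/
lemma exists_outside [Finite F] (hn : 5 ≤ k ^ t) (ht : 2 ≤ t) (hk : 4 ≤ k ∨ (1 ≤ k ∧ 3 ≤ t)) :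
    ∃ m ∈ commutator (OQ D.Q), ∀ σ A, ¬ Wit σ A m.1 := by
  classical
  have hk1 : 0 < k := by omega
  let z₀ : Fin k → F := Pi.single ⟨0, hk1⟩ 1
  have hz₀ : z₀ ≠ 0 := by simp [z₀]
  obtain ⟨u₀, hu₀⟩ := D.exists_ne hz₀
  have hu0 : u₀ ≠ 0 := fun h => by simp [h] at hu₀
  have hind : u₀ ∉ F ∙ z₀ ∧ z₀ ∉ F ∙ u₀ := by
    constructor <;> intro hm <;> obtain ⟨r, hr⟩ := Submodule.mem_span_singleton.1 hm
    · rw [← hr, map_smul, D.alt.alt, smul_zero] at hu₀; exact zero_ne_one hu₀
    · rw [← hr, map_smul, LinearMap.smul_apply, D.alt.alt, smul_zero] at hu₀; exact zero_ne_one hu₀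
  obtain ⟨c, hcz, hc⟩ : ∃ c, c ∉ F ∙ z₀ ∧ (t = 2 → D.g c u₀ = 0 ∧ c ∉ F ∙ u₀) := by
    by_cases ht2 : t = 2
    · obtain ⟨c, hcu, hcz, hcne⟩ := D.exists_perp_avoid (by omega) u₀ z₀ u₀
      refine ⟨c, fun hm => hcne ?_, fun _ => ⟨hcu, hcne⟩⟩
      obtain ⟨r, hr⟩ := Submodule.mem_span_singleton.1 hm
      rw [← hr, map_smul, LinearMap.smul_apply, hu₀, smul_eq_mul, mul_one] at hcu
      rw [← hr, hcu, zero_smul]
      exact zero_mem _
    · exact ⟨u₀, hind.1, fun h => absurd h ht2⟩
  let o : Fin t := ⟨0, by omega⟩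
  let i1 : Fin t := ⟨1, by omega⟩
  have hi1 : i1 ≠ o := by simp [i1, o, Fin.ext_iff]
  set z : Fin t → Fin k → F := fun _ => z₀
  set us : Fin t → Fin k → F := fun _ => u₀
  have h0 : polar D.Q (pvec z) ((1 : F) • pvec (Function.update z o c)) = 0 := by
    rw [one_smul, polar_update ht]
  refine ⟨siegel D.Q (D.pure z) h0, Cfsg.Agent.GeoClasses.siegel_singular_mem_commutator bNondeg
    (by simpa using hn) (D.pure z) h0 (by rw [one_smul, D.pure]), fun σ A hA => ?_⟩
  have h1 := hA us
  rw [siegel_pvec h0] at h1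
  simp only [z, us, hu₀, Finset.prod_const_one, one_mul, mul_one, one_smul] at h1
  set w₀ := c - D.g c u₀ • z₀ with hw
  have hw0 : w₀ ≠ 0 := fun h => hcz (Submodule.mem_span_singleton.2 ⟨D.g c u₀, (sub_eq_zero.1 h).symm⟩)
  have hb : ∀ i, Function.update z o w₀ i ≠ 0 := fun i => by
    rcases eq_or_ne i o with rfl | hi
    · simpa using hw0
    · simpa [hi] using hz₀
  obtain ⟨i, j, hij, hi, hi', hj, hj'⟩ : ∃ i j : Fin t, i ≠ j ∧
      us i ∉ F ∙ Function.update z o w₀ i ∧ Function.update z o w₀ i ∉ F ∙ us i ∧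
      us j ∉ F ∙ Function.update z o w₀ j ∧ Function.update z o w₀ j ∉ F ∙ us j := by
    by_cases ht2 : t = 2
    · obtain ⟨hcu, hcne⟩ := hc ht2
      have hw' : w₀ = c := by rw [hw, hcu, zero_smul, sub_zero]
      refine ⟨o, i1, hi1.symm, ?_, ?_, ?_, ?_⟩
      · simp only [Function.update_self, us, hw']
        intro hm
        obtain ⟨r, hr⟩ := Submodule.mem_span_singleton.1 hm
        rcases eq_or_ne r 0 with rfl | hr0
        · exact hu0 (by rw [← hr, zero_smul])
        · exact hcne (Submodule.mem_span_singleton.2 ⟨r⁻¹, by rw [← hr, inv_smul_smul₀ hr0]⟩)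
      · simpa [us, hw'] using hcne
      · simpa [us, z, hi1] using hind.1
      · simpa [us, z, hi1] using hind.2
    · let i2 : Fin t := ⟨2, by omega⟩
      have hi2 : i2 ≠ o := by simp [i2, o, Fin.ext_iff]
      exact ⟨i1, i2, by simp [i1, i2, Fin.ext_iff], by simpa [us, z, hi1] using hind.1,
        by simpa [us, z, hi1] using hind.2, by simpa [us, z, hi2] using hind.1,
        by simpa [us, z, hi2] using hind.2⟩
  exact not_pure_add (fun _ => hu0) hb D.c_ne hij hi hi' hj hj' _ h1

/-- The elements of `M` contain those of `Ω` stabilising the decomposition. -/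
structure Holds (M : Subgroup (OQ D.Q)) : Prop where
  mem : ∀ m ∈ commutator (OQ D.Q), (∃ σ A, Wit σ A m.1) → m ∈ M

lemma Holds.perm {M : Subgroup (OQ D.Q)} (h : Holds M) {σ : Equiv.Perm (Fin t)}
    (hσ : permOQ D σ ∈ commutator (OQ D.Q)) : permOQ D σ ∈ M :=
  h.mem _ hσ ⟨_, _, wit_perm σ⟩

lemma Holds.sites [Finite F] {M : Subgroup (OQ D.Q)} (h : Holds M) (hn : 5 ≤ k ^ t) (ht : 2 ≤ t)
    (hsign : (-1 : F) ^ t = 1) : HasSites M := fun j u s => by
  obtain ⟨m, hm, hmx⟩ := site_mem_commutator (D := D) hn ht hsign j u s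
  refine ⟨m, h.mem m hm ⟨1, Function.update (fun _ => 1) j
    (LinearMap.toMatrix' (LinearMap.id + s • (D.g.flip u).smulRight u)), fun us => ?_⟩, hmx⟩
  rw [hmx]
  congr 1
  funext i
  rcases eq_or_ne i j with rfl | hi
  · rw [Function.update_self, Function.update_self, Equiv.Perm.one_apply, LinearMap.toMatrix'_mulVec]
    simp [smul_smul, mul_comm]
  · simp [Function.update_of_ne hi]

/-- Characteristic two. -/
theorem alternative_two [Finite F] (h2 : (2 : F) = 0) (hk : 6 ≤ k) (ht : 2 ≤ t) (hn : 5 ≤ k ^ t)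
    {M : Subgroup (OQ D.Q)} (hM : Holds M) :
    (∀ m ∈ M, ∃ σ A, Wit σ A m.1) ∨ commutator (OQ D.Q) ≤ M := by
  classical
  obtain ⟨t, rfl⟩ : ∃ t', t = t' + 1 := ⟨t - 1, by omega⟩
  have hsign : (-1 : F) ^ (t + 1) = 1 := by
    rw [show (-1 : F) = 1 by linear_combination -h2, one_pow]
  have hs := hM.sites hn ht hsign
  let E : Even.Env F k := ⟨D.g, h2, D.alt, hk⟩
  set G := M.map (OQ D.Q).subtype with hG
  have hbT : ∀ n (X Y : Ten F k n), E.bT n X Y = prodForm D.g n X Y := fun n X Y =>
    LinearMap.congr_fun₂ (ext_pvec₂' (f := E.bT n) (f' := prodForm D.g n) fun us vs => by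
      rw [E.bT_pvec, prodForm_pvec]) X Y
  have hI : Even.IsoS E G := by
    rintro _ ⟨m, -, rfl⟩ X Y
    have h := OQ_polar (Q := D.Q) m X Y
    rw [D.polar_eq, D.polar_eq] at h
    rw [hbT, hbT]
    exact mul_left_cancel₀ D.c_ne h
  have hB : Even.BaseS E G := fun j u s => by
    obtain ⟨m, hm, hmx⟩ := hs j u s
    refine ⟨_, Subgroup.mem_map_of_mem _ hm, fun X => ?_⟩
    refine LinearMap.congr_fun (ext_pvec (f := m.1.toLinearMap)
      (g := LinearMap.id + s • Even.proj E j u) fun us => ?_) X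
    rw [LinearEquiv.coe_coe, hmx, pvec_update_add, Function.update_eq_self, pvec_update_smul,
      LinearMap.add_apply, LinearMap.id_apply, LinearMap.smul_apply, Even.proj_pvec, smul_smul]
  have halt : ∀ σ : Equiv.Perm (Fin (t + 1)), Equiv.Perm.sign σ = 1 → perm F k σ ∈ G := fun σ hσ =>
    Subgroup.mem_map_of_mem (OQ D.Q).subtype (hM.perm (permOQ_mem_commutator hσ))
  have hP : Even.AltP G := fun σ hσ => by
    refine ⟨perm F k σ.symm, halt _ (by rw [Equiv.Perm.sign_symm, hσ]), fun _ => 1, ?_⟩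
    simpa using wit_perm (F := F) (m := k) σ.symm
  rcases Even.monomial_or_param t G hB hI hP with hmono | ⟨σ, hσ⟩
  · exact Or.inl fun m hm => hmono (Subgroup.mem_map_of_mem _ hm)
  refine Or.inr ?_
  have halt' : ∀ π : Equiv.Perm (Fin (t + 1)), Equiv.Perm.sign π = 1 → perm F k π ∈ conjG σ G := by
    intro π hπ
    refine ⟨perm F k (σ⁻¹ * π * σ), halt _ (by simp [hπ]), ?_⟩
    refine LinearEquiv.toLinearMap_injective (ext_pvec fun us => ?_)
    simp only [MulEquiv.coe_toMonoidHom, MulAut.conj_apply, LinearEquiv.coe_coe, LinearEquiv.mul_apply]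
    rw [perm_inv, perm_pvec, perm_pvec, perm_pvec, perm_pvec]
    congr 1
    funext i
    simp [Equiv.Perm.mul_def, Equiv.Perm.inv_def]
  obtain ⟨x, y, hxy⟩ := Even.exists_orth (E.forms t)
  let z₀ : Fin k → F := Pi.single ⟨0, by omega⟩ 1
  set A : Fin (t + 1) → Matrix (Fin k) (Fin k) F :=
    Fin.cons (Even.Sd E x y) (fun _ => Even.rk E z₀ z₀) with hA
  set o := σ.symm 0
  set z : Fin (t + 1) → Fin k → F := fun i => if i = o then x else z₀ with hz
  refine commutator_le hs hn (Or.inl (by omega)) (o := o) (z₀ := z) (b := y)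
    (fun i => by simp only [hz]; split_ifs; exacts [hxy.1, by simp [z₀]])
    (by simpa [hz] using hxy.2.1) (mem_par_of_forall ht fun a => ?_)
  obtain ⟨h, hh, hhx⟩ := Even.mem_pair_all (Even.baseS_conj hB σ) (Even.isoS_conj hI σ) halt' hσ
    (z := fun _ => z₀) (fun _ => by simp [z₀]) hxy a
  obtain ⟨_, ⟨m, hm, rfl⟩, rfl⟩ := hh
  refine ⟨m, hm, fun us => (perm F k σ).injective ?_⟩
  have h1 := hhx (perm F k σ (pvec us))
  simp only [MulEquiv.coe_toMonoidHom, MulAut.conj_apply, LinearEquiv.mul_apply,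
    Cfsg.Agent.MaxSub.ExtField.inv_apply_self] at h1
  rw [show (OQ D.Q).subtype m = m.1 from rfl] at h1
  rw [h1, map_add, map_smul, LinearMap.smul_apply, perm_pvec, perm_pvec, Matrix.toLin'_apply,
    pureMat_pvec]
  have hrk : ∀ a b x : Fin k → F, Even.rk E a b *ᵥ x = D.g x b • a := fun a b x => by
    rw [Even.rk, vecMulVec_mulVec, op_smul_eq_smul]
    congr 1
    exact (E.forms 0).eta_dot b x
  have hsy : ∀ p q, D.g p q = D.g q p := E.g_symm
  congr 1
  rw [mul_smul]
  congr 1
  have e : (fun i => (Fin.cons (Even.Sd E x y) (fun _ => Even.rk E z₀ z₀) : Fin (t + 1) → _) i *ᵥ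
      us (σ.symm i)) = fun i => if i = 0 then D.g (us o) y • x + D.g (us o) x • y
        else D.g (us (σ.symm i)) z₀ • z₀ := by
    funext i
    refine Fin.cases ?_ (fun i => ?_) i
    · simp [Even.Sd, Matrix.add_mulVec, hrk, o]
    · simp [hrk, Fin.succ_ne_zero]
  rw [e]
  let w : Fin (t + 1) → Fin k → F := fun i =>
    Function.update z o (D.g (z o) (us o) • y - D.g y (us o) • z o) (σ.symm i)
  have e2 : (fun i => if i = 0 then D.g (us o) y • x + D.g (us o) x • y
        else D.g (us (σ.symm i)) z₀ • z₀) =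
      fun i => (if i = 0 then (1 : F) else D.g (z (σ.symm i)) (us (σ.symm i))) • w i := by
    funext i
    by_cases hi : i = 0
    · subst hi
      simp only [if_true, one_smul, w, o, Function.update_self, hz]
      rw [sub_eq_add_neg, (E.forms 0).neg_eq, hsy (us (σ.symm 0)) y, hsy (us (σ.symm 0)) x, add_comm]
    · have ho : σ.symm i ≠ o := fun h => hi (σ.symm.injective h)
      simp [hi, w, Function.update_of_ne ho, hz, ho, hsy (us (σ.symm i)) z₀]
  rw [e2]
  funext p
  simp only [pvec, Pi.smul_apply, smul_eq_mul, Finset.prod_mul_distrib]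
  congr 1
  rw [← Equiv.prod_comp σ]
  simp only [Equiv.symm_apply_apply]
  rw [← Finset.mul_prod_erase Finset.univ _ (Finset.mem_univ o), if_pos (by simp [o]), one_mul]
  exact Finset.prod_congr rfl fun i hi => by
    rw [if_neg fun h => Finset.ne_of_mem_erase hi (σ.injective (h.trans (σ.apply_symm_apply 0).symm))]

/-- Odd characteristic. -/
theorem alternative_odd [Fintype F] (h2 : (2 : F) ≠ 0) (hk2 : 2 ≤ k) (hk3 : Nat.card F = 3 → 4 ≤ k)
    (ht : 2 ≤ t) (heven : Even t) (hn : 5 ≤ k ^ t) (hkt : 4 ≤ k ∨ (k = 2 ∧ 4 ≤ t))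
    {M : Subgroup (OQ D.Q)} (hM : Holds M) :
    (∀ m ∈ M, ∃ σ A, Wit σ A m.1) ∨ commutator (OQ D.Q) ≤ M := by
  classical
  haveI : NeZero k := ⟨by omega⟩
  have hsign : (-1 : F) ^ t = 1 := heven.neg_one_pow
  have hs := hM.sites hn ht hsign
  set G := LinearMap.toMatrix₂' F D.g with hGdef
  have hfG : ∀ x y, fG G x y = D.g x y := fun x y => by
    rw [fG, ← dotProduct_mulVec, hGdef, ← Matrix.toLinearMap₂'_apply', Matrix.toLinearMap₂'_toMatrix']
  let toGL : OQ D.Q →* GL (Fin t → Fin k) F :=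
    { toFun := fun m =>
        { val := LinearMap.toMatrix' m.1.toLinearMap
          inv := LinearMap.toMatrix' m.1.symm.toLinearMap
          val_inv := by rw [← LinearMap.toMatrix'_comp, LinearEquiv.comp_coe]; simp
          inv_val := by rw [← LinearMap.toMatrix'_comp, LinearEquiv.comp_coe]; simp }
      map_one' := Units.ext LinearMap.toMatrix'_id
      map_mul' := fun a b => Units.ext (LinearMap.toMatrix'_comp _ _) }
  have happ : ∀ m X, (toGL m : Matrix (Fin t → Fin k) (Fin t → Fin k) F) *ᵥ X = m.1 X := fun m X =>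
    LinearMap.toMatrix'_mulVec _ X
  set K := M.map toGL with hK
  have hE : ∀ z x, E G z *ᵥ x = D.g z x • z := fun z x => by rw [E_mulVec, hfG]
  have hSys : Sys G K := by
    refine ⟨?_, ?_, h2, by omega, hk2, fun j z s => ?_, fun h3 π => ?_, ?_⟩
    · ext i l
      simp only [Matrix.transpose_apply, Matrix.neg_apply, hGdef, LinearMap.toMatrix₂'_apply]
      exact D.alt.skew _ _
    · refine (Matrix.isUnit_iff_isUnit_det G).1 (Matrix.mulVec_injective_iff_isUnit.1
        ((injective_iff_map_eq_zero (Matrix.mulVecLin G)).2 fun x hx => ?_))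
      refine D.alt.nd x fun y => ?_
      rw [D.alt.skew, ← hfG, fG, ← dotProduct_mulVec, show G *ᵥ x = 0 from hx, dotProduct_zero,
        neg_zero]
    · obtain ⟨m, hm, hmx⟩ := hs j z (-s)
      refine ⟨toGL m, Subgroup.mem_map_of_mem _ hm, ?_⟩
      apply Matrix.toLin'.injective
      refine ext_pvec fun us => ?_
      rw [Matrix.toLin'_apply, Matrix.toLin'_apply, happ, hmx, add_mulVec, one_mulVec, smul_mulVec,
        show site j (E G z) = pureMat (Function.update (fun _ => 1) j (E G z)) from rfl, pureMat_pvec,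
        pvec_update_add, Function.update_eq_self, pvec_update_smul, D.alt.skew (us j) z, neg_mul_neg,
        mul_smul]
      congr 2
      rw [← pvec_update_smul]
      congr 1
      funext i
      rcases eq_or_ne i j with rfl | hi
      · simp [hE]
      · simp [Function.update_of_ne hi]
    · have h4 : 4 ≤ t := by obtain ⟨r, hr⟩ := heven; omega
      refine ⟨permOQ D π, hM.perm (perm_mem_commutator h2 h4 π), ?_⟩
      refine Units.ext (Matrix.toLin'.injective (ext_pvec fun us => ?_))
      rw [Matrix.toLin'_apply, Matrix.toLin'_apply, happ, permOQ_pvec]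
      funext x
      simp only [glFactorPerm, factorPerm, Matrix.mulVec, dotProduct, ite_mul, one_mul, zero_mul,
        Finset.sum_ite_eq', Finset.mem_univ, if_true, pvec, Function.comp_apply]
      exact (Equiv.prod_comp π (fun i => us (π.symm i) (x i))).symm.trans (by simp)
    · rintro _ ⟨m, -, rfl⟩
      have hgv : ∀ X Y, X ⬝ᵥ (gV G t *ᵥ Y) = prodForm D.g t X Y := fun X Y => by
        rw [← Matrix.toLinearMap₂'_apply']
        rfl
      refine Matrix.ext fun x y => ?_
      have h := OQ_polar (Q := D.Q) m (Pi.single x 1) (Pi.single y 1)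
      rw [D.polar_eq, D.polar_eq] at h
      have h' := mul_left_cancel₀ D.c_ne h
      rw [← hgv, ← hgv, ← happ, ← happ, Matrix.mulVec_mulVec, ← Matrix.vecMul_transpose,
        ← Matrix.dotProduct_mulVec, Matrix.mulVec_mulVec, ← mul_assoc] at h'
      simpa [Matrix.mulVec_single_one, single_dotProduct] using h'
  rcases hSys.main_even heven hk3 with hpure | ⟨l, p, o, b, hl, hp, hb, hroot⟩
  · refine Or.inl fun m hm => ?_
    obtain ⟨cs, π, h⟩ := hpure _ (Subgroup.mem_map_of_mem _ hm)
    refine ⟨π.symm, fun i => (cs i : Matrix (Fin k) (Fin k) F), fun us => ?_⟩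
    rw [← happ, h, ← Matrix.mulVec_mulVec]
    rw [show (factorPerm k π : Matrix (Fin t → Fin k) (Fin t → Fin k) F) *ᵥ pvec us =
      pvec fun i => us (π.symm i) from ?_, pureMat_pvec]
    · funext x
      simp only [factorPerm, Matrix.mulVec, dotProduct, ite_mul, one_mul, zero_mul,
        Finset.sum_ite_eq', Finset.mem_univ, if_true, pvec, Function.comp_apply]
      exact (Equiv.prod_comp π (fun i => us (π.symm i) (x i))).symm.trans (by simp) |>.symm
  refine Or.inr ?_
  refine commutator_le hs hn ?_ (o := o) (z₀ := p) (b := b) hp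
    (fun hm => by
      obtain ⟨c, hc⟩ := Submodule.mem_span_singleton.1 hm
      exact hb c hc.symm)
    (mem_par_of_forall ht fun a => ?_)
  · rcases hkt with h | ⟨h, h'⟩
    · exact Or.inl h
    · refine Or.inr ⟨h, h', fun π hπ => ⟨permOQ D π.symm, hM.perm (permOQ_mem_commutator
        (by rw [Equiv.Perm.sign_symm, hπ])), fun us => ?_⟩⟩
      rw [permOQ_pvec, Equiv.symm_symm]
  · obtain ⟨_, ⟨m, hm, rfl⟩, hme⟩ := hroot (-a * l⁻¹)
    refine ⟨m, hm, fun us => ?_⟩
    rw [← happ, hme, smul_smul, neg_mul, neg_mul, mul_assoc, inv_mul_cancel₀ hl, mul_one, add_mulVec,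
      one_mulVec, smul_mulVec, pureMat_pvec]
    have e : (fun i => Function.update (fun i => E G (p i)) o (A G (p o) b) i *ᵥ us i) =
        fun i => (if i = o then (-1 : F) else D.g (p i) (us i)) •
          Function.update p o (D.g (p o) (us o) • b - D.g b (us o) • p o) i := by
      funext i
      rcases eq_or_ne i o with rfl | hi
      · simp only [Function.update_self, if_pos, A, Matrix.sub_mulVec]
        rw [show vecMulVec (p i) (b ᵥ* G) *ᵥ us i = D.g b (us i) • p i by
            rw [vecMulVec_mulVec, op_smul_eq_smul, ← hfG]; rfl,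
          show vecMulVec b (p i ᵥ* G) *ᵥ us i = D.g (p i) (us i) • b by
            rw [vecMulVec_mulVec, op_smul_eq_smul, ← hfG]; rfl]
        module
      · simp [Function.update_of_ne hi, hi, hE]
    rw [e]
    congr 1
    funext x
    simp only [pvec, Pi.smul_apply, smul_eq_mul, Finset.prod_mul_distrib]
    rw [← mul_assoc]
    congr 1
    rw [← Finset.mul_prod_erase Finset.univ _ (Finset.mem_univ o), if_pos rfl,
      Finset.prod_congr rfl fun i hi => if_neg (Finset.ne_of_mem_erase hi)]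
    ring

end Cfsg.Agent.MaxSub.TensorPowSp.Omega
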